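import Cfsg.Agent.Lib.Helper60.F4.Sub

/-!
Two general facts for the certificate layer: two enumerated groups whose tables have the same
transition functions are isomorphic, and a criterion for the commutator subgroup of a group
given by generators to lie in a subgroup.
-/

set_option autoImplicit false

namespace Cfsg.Agent.Lib.Helper60.G2

open Cfsg.Agent.Lib.Helper60.Cert
open Cfsg.Agent.Lib.Helper60.J3 (closure_left_ind')

section iso

variable {M M' : Type*} [Monoid M] [Monoid M'] (μ : Model M) (μ' : Model M')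
  {𝒢 𝒢' : Type*} [Group 𝒢] [Group 𝒢'] (ψ : 𝒢 →* M) (ψ' : 𝒢' →* M') (D D' : LData)

/-- pairs of generators with the same number -/
def pairSet : Set (𝒢 × 𝒢') :=
  {p | ∃ l < D.r, ψ p.1 = μ.toM (D.gen l) ∧ ψ' p.2 = μ'.toM (D'.gen l)}

/-- the subgroup of the product generated by the pairs of generators -/
def pairGrp : Subgroup (𝒢 × 𝒢') := Subgroup.closure (pairSet μ μ' ψ ψ' D D')

variable {μ μ' ψ ψ' D D'}

theorem pair_rel [Finite 𝒢] [Finite 𝒢'] (ok : LOK μ D) (ok' : LOK μ' D') (hN : D'.N = D.N)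
    (hr : D'.r = D.r) (hnx : D'.nx = D.nx) :
    ∀ p ∈ pairGrp μ μ' ψ ψ' D D',
      ∃ j < D.N, ψ p.1 = μ.toM (D.T j) ∧ ψ' p.2 = μ'.toM (D'.T j) := by
  apply closure_left_ind'
  · intro x _
    exact isOfFinOrder_of_finite x
  · refine ⟨0, ok.npos, ?_, ?_⟩
    · rw [ok.t0, μ.toM_one]; exact map_one ψ
    · rw [ok'.t0, μ'.toM_one]; exact map_one ψ'
  · rintro ⟨g, g'⟩ ⟨l, hl, hg, hg'⟩ ⟨k, k'⟩ ⟨j, hj, hk, hk'⟩
    have hg : ψ g = μ.toM (D.gen l) := hg
    have hg' : ψ' g' = μ'.toM (D'.gen l) := hg'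
    have hk : ψ k = μ.toM (D.T j) := hk
    have hk' : ψ' k' = μ'.toM (D'.T j) := hk'
    obtain ⟨h1, h2⟩ := chkNx_spec ok j hj l hl
    obtain ⟨h1', _⟩ := chkNx_spec ok' j (hN ▸ hj) l (hr ▸ hl)
    refine ⟨D.nx l j, h2, ?_, ?_⟩
    · change ψ (g * k) = _
      rw [map_mul, hg, hk, μ.mul_eq h1]
    · change ψ' (g' * k') = _
      rw [map_mul, hg', hk', μ'.mul_eq h1', hnx]

theorem pair_fst_inj [Finite 𝒢] [Finite 𝒢'] (ok : LOK μ D) (ok' : LOK μ' D') (hN : D'.N = D.N)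
    (hr : D'.r = D.r) (hnx : D'.nx = D.nx) (hψ' : Function.Injective ψ') :
    Function.Injective ((MonoidHom.fst 𝒢 𝒢').comp (pairGrp μ μ' ψ ψ' D D').subtype) := by
  intro p q h
  have h : p.1.1 = q.1.1 := h
  obtain ⟨j, hj, hj1, hj2⟩ := pair_rel ok ok' hN hr hnx p.1 p.2
  obtain ⟨i, hi, hi1, hi2⟩ := pair_rel ok ok' hN hr hnx q.1 q.2
  have e : j = i := ok.inj j hj i hi (by rw [← hj1, ← hi1, h])
  subst e
  apply Subtype.ext
  apply Prod.ext h
  apply hψ'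
  rw [hj2, hi2]

theorem pair_snd_inj [Finite 𝒢] [Finite 𝒢'] (ok : LOK μ D) (ok' : LOK μ' D') (hN : D'.N = D.N)
    (hr : D'.r = D.r) (hnx : D'.nx = D.nx) (hψ : Function.Injective ψ) :
    Function.Injective ((MonoidHom.snd 𝒢 𝒢').comp (pairGrp μ μ' ψ ψ' D D').subtype) := by
  intro p q h
  have h : p.1.2 = q.1.2 := h
  obtain ⟨j, hj, hj1, hj2⟩ := pair_rel ok ok' hN hr hnx p.1 p.2
  obtain ⟨i, hi, hi1, hi2⟩ := pair_rel ok ok' hN hr hnx q.1 q.2
  have e : j = i := ok'.inj j (hN ▸ hj) i (hN ▸ hi) (by rw [← hj2, ← hi2, h])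
  subst e
  apply Subtype.ext
  refine Prod.ext ?_ h
  apply hψ
  rw [hj1, hi1]

theorem pair_fst_range (hex' : ∀ l < D.r, ∃ g', ψ' g' = μ'.toM (D'.gen l)) :
    ((MonoidHom.fst 𝒢 𝒢').comp (pairGrp μ μ' ψ ψ' D D').subtype).range =
      genGrp μ ψ D.gen D.r := by
  rw [MonoidHom.range_comp, Subgroup.range_subtype, pairGrp, MonoidHom.map_closure, genGrp]
  congr 1
  ext g
  constructor
  · rintro ⟨p, ⟨l, hl, h1, _⟩, rfl⟩
    exact ⟨l, hl, h1⟩
  · rintro ⟨l, hl, h1⟩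
    obtain ⟨g', hg'⟩ := hex' l hl
    exact ⟨(g, g'), ⟨l, hl, h1, hg'⟩, rfl⟩

theorem pair_snd_range (hr : D'.r = D.r) (hex : ∀ l < D.r, ∃ g, ψ g = μ.toM (D.gen l)) :
    ((MonoidHom.snd 𝒢 𝒢').comp (pairGrp μ μ' ψ ψ' D D').subtype).range =
      genGrp μ' ψ' D'.gen D'.r := by
  rw [MonoidHom.range_comp, Subgroup.range_subtype, pairGrp, MonoidHom.map_closure, genGrp]
  congr 1
  ext g'
  constructor
  · rintro ⟨p, ⟨l, hl, _, h2⟩, rfl⟩
    exact ⟨l, hr ▸ hl, h2⟩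
  · rintro ⟨l, hl, h2⟩
    obtain ⟨g, hg⟩ := hex l (hr ▸ hl)
    exact ⟨(g, g'), ⟨l, hr ▸ hl, hg, h2⟩, rfl⟩

/-- two enumerated groups with the same transition tables are isomorphic -/
theorem iso_of_tables [Finite 𝒢] [Finite 𝒢'] (ok : LOK μ D) (ok' : LOK μ' D') (hN : D'.N = D.N)
    (hr : D'.r = D.r) (hnx : D'.nx = D.nx) (hψ : Function.Injective ψ)
    (hψ' : Function.Injective ψ') (hex : ∀ l < D.r, ∃ g, ψ g = μ.toM (D.gen l))
    (hex' : ∀ l < D.r, ∃ g', ψ' g' = μ'.toM (D'.gen l)) :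
    Nonempty (genGrp μ ψ D.gen D.r ≃* genGrp μ' ψ' D'.gen D'.r) := by
  have e1 := MonoidHom.ofInjective (pair_fst_inj (ψ := ψ) ok ok' hN hr hnx hψ')
  have e2 := MonoidHom.ofInjective (pair_snd_inj (ψ' := ψ') ok ok' hN hr hnx hψ)
  exact ⟨((MulEquiv.subgroupCongr (pair_fst_range hex')).symm.trans e1.symm).trans
    (e2.trans (MulEquiv.subgroupCongr (pair_snd_range hr hex)))⟩

end iso

/-- a packed element with a packed two-sided inverse is the value of a unit -/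
theorem exists_unit_of_inv {N : Type*} [Monoid N] {ν : Model N} {m m' : ℕ}
    (h1 : ν.mulP m m' = ν.oneP) (h2 : ν.mulP m' m = ν.oneP) : ∃ g : Nˣ, (g : N) = ν.toM m :=
  ⟨⟨ν.toM m, ν.toM m', by rw [← ν.toM_mul, h1, ν.toM_one], by rw [← ν.toM_mul, h2, ν.toM_one]⟩,
    rfl⟩

theorem comm_mem_comm {G : Type*} [Group G] (a b : G) : a * b * a⁻¹ * b⁻¹ ∈ commutator G := by
  rw [commutator_def, ← commutatorElement_def]
  exact Subgroup.commutator_mem_commutator (Subgroup.mem_top _) (Subgroup.mem_top _)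

/-- a subgroup inside the image of the commutator subgroup -/
theorem subgroupOf_le_comm {𝒢 : Type*} [Group 𝒢] (G K : Subgroup 𝒢)
    (h : K ≤ (commutator G).map G.subtype) : K.subgroupOf G ≤ commutator G := by
  intro x hx
  obtain ⟨y, hy, hyx⟩ := h (Subgroup.mem_subgroupOf.mp hx)
  have : y = x := Subtype.ext hyx
  rwa [← this]

/-- if every generator of `G` is an element of `K` times a power of an element normalising
`K`, then the commutator subgroup of `G` lies in `K` -/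
theorem comm_le_of_cyclic {𝒢 : Type*} [Group 𝒢] (G K : Subgroup 𝒢) (hKG : K ≤ G) (S : Set 𝒢)
    (hS : G = Subgroup.closure S) (a : 𝒢) (ha : a ∈ G) (hn1 : ∀ k ∈ K, a * k * a⁻¹ ∈ K)
    (hn2 : ∀ k ∈ K, a⁻¹ * k * a ∈ K) (hdec : ∀ s ∈ S, ∃ k ∈ K, ∃ e : ℕ, s = k * a ^ e) :
    commutator G ≤ K.subgroupOf G := by
  have haN : a ∈ Subgroup.normalizer (K : Set 𝒢) := by
    rw [Subgroup.mem_normalizer_iff]
    intro h
    refine ⟨hn1 h, fun hh => ?_⟩
    have := hn2 _ hh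
    simpa [mul_assoc] using this
  have hGN : G ≤ Subgroup.normalizer (K : Set 𝒢) := by
    rw [hS, Subgroup.closure_le]
    intro s hs
    obtain ⟨k, hk, e, rfl⟩ := hdec s hs
    exact Subgroup.mul_mem _ (Subgroup.le_normalizer hk) (Subgroup.pow_mem _ haN e)
  haveI : (K.subgroupOf G).Normal := (Subgroup.normal_subgroupOf_iff_le_normalizer hKG).mpr hGN
  apply Subgroup.Normal.commutator_le_of_self_sup_commutative_eq_top
    (H := Subgroup.zpowers (⟨a, ha⟩ : G)) ?_ inferInstance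
  rw [eq_top_iff]
  intro x _
  have hT : G ≤ (K.subgroupOf G ⊔ Subgroup.zpowers (⟨a, ha⟩ : G)).map G.subtype := by
    conv_lhs => rw [hS]
    rw [Subgroup.closure_le]
    intro s hs
    obtain ⟨k, hk, e, rfl⟩ := hdec s hs
    refine ⟨(⟨k, hKG hk⟩ : G) * (⟨a, ha⟩ : G) ^ e, ?_, ?_⟩
    · exact Subgroup.mul_mem_sup (Subgroup.mem_subgroupOf.mpr hk)
        (Subgroup.pow_mem _ (Subgroup.mem_zpowers _) e)
    · simp
  obtain ⟨y, hy, hyx⟩ := hT x.2
  have : y = x := Subtype.ext hyx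
  rwa [← this]

end Cfsg.Agent.Lib.Helper60.G2
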