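import Cfsg.Prelude.Def_LieTwisted
import Cfsg.Agent.Lib.Helper60.G2.Tab
import Cfsg.Agent.Lib.Helper60.G2.Iso

/-!
The group `²G₂(3)` of the Prelude (a subgroup of the adjoint Chevalley group of type `G₂` over
the field with three elements, 14 × 14 matrices) in packed form: its generating words evaluate
to 54 explicit packed matrices.
-/

set_option autoImplicit false

namespace Cfsg.Agent.Lib.Helper60.G2

open Cfsg Cfsg.Lie Cfsg.Agent.Lib.Helper60.Cert

/-- the invertible matrices on the Chevalley basis -/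
abbrev GLg := GL chevG2.Idx (ZMod 3)

/-- numbering of the Chevalley basis -/
def e14 : chevG2.Idx ≃ Fin 14 := (finSumFinEquiv : Fin 2 ⊕ Fin 12 ≃ Fin (2 + 12))

/-- reindexing of matrices -/
def reG : Matrix chevG2.Idx chevG2.Idx (ZMod 3) →* Mat where
  toFun M := M.submatrix e14.symm e14.symm
  map_one' := Matrix.submatrix_one_equiv e14.symm
  map_mul' M N := (Matrix.submatrix_mul_equiv M N e14.symm e14.symm e14.symm).symm

theorem reG_inj : Function.Injective reG := by
  intro M N h
  ext i j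
  have := congrFun (congrFun h (e14 i)) (e14 j)
  simpa [reG] using this

/-- the packed-model homomorphism -/
def ψG : GLg →* Mat := reG.comp (Units.coeHom _)

theorem ψG_inj : Function.Injective ψG := fun _ _ h => Units.ext (reG_inj h)

theorem ψG_val (g : GLg) : ψG g = reG (g : Matrix chevG2.Idx chevG2.Idx (ZMod 3)) := rfl

/-- entries of a root element -/
def entX (r : ℕ) (t : ZMod 3) (i j : Fin 14) : ZMod 3 :=
  chevG2.x (ZMod 3) r t (e14.symm i) (e14.symm j)

/-- entries of a packed matrix -/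
def entL (lit : ℕ) (i j : Fin 14) : ZMod 3 := toMat lit i j

/-- the packed form of `x_r(t)` -/
def xP (r : ℕ) (t : ZMod 3) : ℕ := if t = 0 then oneP else if t = 1 then xL1 r else xL2 r

theorem x0_ok : ∀ t : ZMod 3, ∀ i j : Fin 14, entX 0 t i j = entL (xP 0 t) i j := by
  decide +kernel
theorem x1_ok : ∀ t : ZMod 3, ∀ i j : Fin 14, entX 1 t i j = entL (xP 1 t) i j := by
  decide +kernel
theorem x2_ok : ∀ t : ZMod 3, ∀ i j : Fin 14, entX 2 t i j = entL (xP 2 t) i j := by
  decide +kernel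
theorem x3_ok : ∀ t : ZMod 3, ∀ i j : Fin 14, entX 3 t i j = entL (xP 3 t) i j := by
  decide +kernel
theorem x4_ok : ∀ t : ZMod 3, ∀ i j : Fin 14, entX 4 t i j = entL (xP 4 t) i j := by
  decide +kernel
theorem x5_ok : ∀ t : ZMod 3, ∀ i j : Fin 14, entX 5 t i j = entL (xP 5 t) i j := by
  decide +kernel
theorem x6_ok : ∀ t : ZMod 3, ∀ i j : Fin 14, entX 6 t i j = entL (xP 6 t) i j := by
  decide +kernel
theorem x7_ok : ∀ t : ZMod 3, ∀ i j : Fin 14, entX 7 t i j = entL (xP 7 t) i j := by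
  decide +kernel
theorem x8_ok : ∀ t : ZMod 3, ∀ i j : Fin 14, entX 8 t i j = entL (xP 8 t) i j := by
  decide +kernel
theorem x9_ok : ∀ t : ZMod 3, ∀ i j : Fin 14, entX 9 t i j = entL (xP 9 t) i j := by
  decide +kernel
theorem x10_ok : ∀ t : ZMod 3, ∀ i j : Fin 14, entX 10 t i j = entL (xP 10 t) i j := by
  decide +kernel
theorem x11_ok : ∀ t : ZMod 3, ∀ i j : Fin 14, entX 11 t i j = entL (xP 11 t) i j := by
  decide +kernel

theorem reG_x (r : ℕ) (hr : r < 12) (t : ZMod 3) :
    reG (chevG2.x (ZMod 3) r t) = toMat (xP r t) := by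
  interval_cases r
  · exact Matrix.ext (x0_ok t)
  · exact Matrix.ext (x1_ok t)
  · exact Matrix.ext (x2_ok t)
  · exact Matrix.ext (x3_ok t)
  · exact Matrix.ext (x4_ok t)
  · exact Matrix.ext (x5_ok t)
  · exact Matrix.ext (x6_ok t)
  · exact Matrix.ext (x7_ok t)
  · exact Matrix.ext (x8_ok t)
  · exact Matrix.ext (x9_ok t)
  · exact Matrix.ext (x10_ok t)
  · exact Matrix.ext (x11_ok t)

/-- the packed form of a word in root elements -/
def wordP (w : List (ℕ × ZMod 3)) : ℕ := w.foldr (fun p acc => mulP (xP p.1 p.2) acc) oneP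

theorem wordP_cons (p : ℕ × ZMod 3) (w : List (ℕ × ZMod 3)) :
    wordP (p :: w) = mulP (xP p.1 p.2) (wordP w) := by
  unfold wordP
  rw [List.foldr_cons]

theorem reG_wordMat (w : List (ℕ × ZMod 3)) (h : ∀ p ∈ w, p.1 < 12) :
    reG (chevG2.wordMat (ZMod 3) w) = toMat (wordP w) := by
  induction w with
  | nil =>
    have : chevG2.wordMat (ZMod 3) [] = 1 := by simp [ChevalleyDatum.wordMat]
    rw [this, map_one]
    exact toMat_oneP.symm
  | cons p w ih =>
    have e : chevG2.wordMat (ZMod 3) (p :: w) =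
        chevG2.x (ZMod 3) p.1 p.2 * chevG2.wordMat (ZMod 3) w := by
      simp [ChevalleyDatum.wordMat]
    rw [e, map_mul, reG_x p.1 (h p List.mem_cons_self) p.2,
      ih (fun q hq => h q (List.mem_cons_of_mem _ hq)), wordP_cons, toMat_mulP]

/-- the packed value is one of the 54 generators -/
def chkW54 (v : ℕ) : Bool := (List.range 54).any (fun l => Nat.beq v (gN l))

theorem chkW54_spec {v : ℕ} (h : chkW54 v = true) : ∃ l < 54, v = gN l := by
  simp only [chkW54, List.any_eq_true, List.mem_range] at h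
  obtain ⟨l, hl, h⟩ := h
  exact ⟨l, hl, Nat.eq_of_beq_eq_true h⟩

theorem wU_ok : ∀ t u v : ZMod 3, chkW54 (wordP (reeWordU 1 t u v)) = true := by
  decide +kernel

theorem wV_ok : ∀ t u v : ZMod 3, chkW54 (wordP (reeWordV 1 t u v)) = true := by
  decide +kernel

theorem rU_ok : ∀ t u v : ZMod 3, ∀ p ∈ reeWordU 1 t u v, p.1 < 12 := by decide +kernel

theorem rV_ok : ∀ t u v : ZMod 3, ∀ p ∈ reeWordV 1 t u v, p.1 < 12 := by decide +kernel

theorem roots_of_mem {w : List (ℕ × ZMod 3)} (hw : w ∈ g2Words (ZMod 3) 1) :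
    ∀ p ∈ w, p.1 < 12 := by
  obtain ⟨t, u, v, rfl | rfl⟩ := hw
  · exact rU_ok t u v
  · exact rV_ok t u v

theorem chk_of_mem {w : List (ℕ × ZMod 3)} (hw : w ∈ g2Words (ZMod 3) 1) :
    chkW54 (wordP w) = true := by
  obtain ⟨t, u, v, rfl | rfl⟩ := hw
  · exact wU_ok t u v
  · exact wV_ok t u v

/-- the field element with a given number -/
def tz (l : ℕ) : ZMod 3 := ((Nat.mod l 3 : ℕ) : ZMod 3)

/-- the 54 generating words -/
def w54 (l : ℕ) : List (ℕ × ZMod 3) :=
  if l < 27 then reeWordU 1 (tz (l / 9)) (tz (l / 3)) (tz l)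
  else reeWordV 1 (tz ((l - 27) / 9)) (tz ((l - 27) / 3)) (tz (l - 27))

theorem w54_mem (l : ℕ) : w54 l ∈ g2Words (ZMod 3) 1 := by
  unfold w54
  split
  · exact ⟨_, _, _, Or.inl rfl⟩
  · exact ⟨_, _, _, Or.inr rfl⟩

theorem w54_val : allBelow (fun l => Nat.beq (wordP (w54 l)) (gN l)) 54 = true := by
  decide +kernel

/-- the group of the Prelude is generated by the 54 packed matrices -/
theorem twistedG2_eq : twistedG2 (ZMod 3) 1 = genGrp model ψG gN 54 := by
  unfold twistedG2 ChevalleyDatum.genSubgroup genGrp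
  apply le_antisymm
  · rw [Subgroup.closure_le]
    rintro g ⟨w, hw, hg⟩
    have hv : ψG g = toMat (wordP w) := by
      rw [ψG_val, hg]; exact reG_wordMat w (roots_of_mem hw)
    obtain ⟨l, hl, h⟩ := chkW54_spec (chk_of_mem hw)
    exact Subgroup.subset_closure ⟨l, hl, by rw [hv, h]; rfl⟩
  · rw [Subgroup.closure_le]
    rintro g ⟨l, hl, hg⟩
    apply Subgroup.subset_closure
    refine ⟨w54 l, w54_mem l, ?_⟩
    apply reG_inj
    rw [← ψG_val, hg, reG_wordMat (w54 l) (roots_of_mem (w54_mem l))]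
    have := Nat.eq_of_beq_eq_true (allBelow_spec _ _ w54_val l hl)
    rw [this]; rfl

/-- reindexing back -/
def reG' : Mat →* Matrix chevG2.Idx chevG2.Idx (ZMod 3) where
  toFun M := M.submatrix e14 e14
  map_one' := Matrix.submatrix_one_equiv e14
  map_mul' M N := (Matrix.submatrix_mul_equiv M N e14 e14 e14).symm

theorem reG_reG' (M : Mat) : reG (reG' M) = M := by
  ext i j
  simp [reG, reG']

/-- a packed matrix with a packed inverse is the value of an invertible matrix -/
theorem exists_of_inv {m m' : ℕ} (h1 : model.mulP m m' = model.oneP)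
    (h2 : model.mulP m' m = model.oneP) : ∃ g : GLg, ψG g = model.toM m := by
  obtain ⟨u, hu⟩ := exists_unit_of_inv (ν := model) h1 h2
  refine ⟨Units.map reG' u, ?_⟩
  rw [ψG_val]
  change reG (reG' (u : Mat)) = _
  rw [reG_reG', hu]

end Cfsg.Agent.Lib.Helper60.G2
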